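import Cfsg.Agent.H740.K4.Equiv
import Cfsg.Agent.H821.K547.Defs
import Mathlib

/-!
# S4547-QE: reduction of a 2-automorphism to a field automorphism by counting (helper805)

* `exists_conj_mem` : a 2-element is conjugate into a subgroup of odd index;
* `reduce` : `f : C →* MulAut M` injective modulo inner automorphisms, `|Aut M| = d |C| |M|`, `d` odd: every `τ` with
  `TwoPow τ` is conjugate to `conj g * f c`;
* `TwoPow`, `IsInn`, `AutExt`, `GInv3`, `D3 (AutExt _)` under conjugation in `MulAut M` and under multiplication by inner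
  automorphisms.
-/

set_option autoImplicit false

open Cfsg

namespace Cfsg.Agent.H805.K547.Red

open Cfsg.Agent.H601.K4 Cfsg.Agent.H821.K547

universe u

section grp

/-- a 2-element is conjugate into a subgroup of odd index -/
theorem exists_conj_mem {Q : Type*} [Group Q] [Finite Q] (H : Subgroup Q) (hodd : ¬ 2 ∣ H.index) {t : Q} {k : ℕ}
    (ht : t ^ 2 ^ k = 1) : ∃ x : Q, x⁻¹ * t * x ∈ H := by
  have : Fact (Nat.Prime 2) := ⟨Nat.prime_two⟩
  have hp : IsPGroup 2 (Subgroup.zpowers t) := by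
    rintro ⟨_, n, rfl⟩
    refine ⟨k, Subtype.ext ?_⟩
    show (t ^ n) ^ 2 ^ k = 1
    rw [← zpow_natCast, ← zpow_mul, mul_comm, zpow_mul, zpow_natCast, ht, one_zpow]
  have hne : ¬ 2 ∣ Nat.card (Q ⧸ H) := hodd
  obtain ⟨a, ha⟩ := hp.nonempty_fixed_point_of_prime_not_dvd_card (Q ⧸ H) hne
  obtain ⟨x, rfl⟩ := QuotientGroup.mk_surjective a
  refine ⟨x, ?_⟩
  have h1 : t • (QuotientGroup.mk x : Q ⧸ H) = QuotientGroup.mk x := ha ⟨t, Subgroup.mem_zpowers t⟩
  have h2 : (QuotientGroup.mk (t * x) : Q ⧸ H) = QuotientGroup.mk x := h1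
  have h3 := QuotientGroup.eq.1 h2.symm
  rwa [← mul_assoc] at h3

variable {M : Type*} [Group M]

theorem isInn_iff (τ : MulAut M) : IsInn τ ↔ ∃ s : M, τ = MulAut.conj s :=
  ⟨fun ⟨s, hs⟩ => ⟨s, MulEquiv.ext hs⟩, fun ⟨s, hs⟩ => ⟨s, fun x => by rw [hs]; rfl⟩⟩

theorem twoPow_iff (τ : MulAut M) : TwoPow τ ↔ ∃ (k : ℕ) (s : M), τ ^ 2 ^ k = MulAut.conj s :=
  ⟨fun ⟨k, s, hs⟩ => ⟨k, s, MulEquiv.ext hs⟩, fun ⟨k, s, hs⟩ => ⟨k, s, fun x => by rw [hs]; rfl⟩⟩

theorem conj_conj_eq (x : MulAut M) (g : M) : x * MulAut.conj g * x⁻¹ = MulAut.conj (x g) := by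
  ext y
  show x (g * x⁻¹ y * g⁻¹) = x g * y * (x g)⁻¹
  rw [map_mul, map_mul, map_inv, MulAut.apply_inv_self]

instance inn_normal : ((MulAut.conj : M →* MulAut M).range).Normal := by
  constructor
  rintro _ ⟨g, rfl⟩ x
  exact ⟨x g, (conj_conj_eq x g).symm⟩

/-- **the reduction** -/
theorem reduce {C : Type*} [Group C] [Finite M] (f : C →* MulAut M)
    (hinj : ∀ c, IsInn (f c) → c = 1) {d : ℕ} (hd : ¬ 2 ∣ d) (hZ : ∀ g : M, (∀ x, g * x = x * g) → g = 1)
    (hcard : Nat.card (MulAut M) = d * Nat.card C * Nat.card M) {τ : MulAut M} (hτ : TwoPow τ) :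
    ∃ (x : MulAut M) (g : M) (c : C), x * τ * x⁻¹ = MulAut.conj g * f c := by
  have hfA : Finite (MulAut M) := inferInstance
  set N : Subgroup (MulAut M) := (MulAut.conj : M →* MulAut M).range with hN
  have hNn : N.Normal := inn_normal
  have hinjc : Function.Injective (MulAut.conj : M →* MulAut M) := by
    rw [injective_iff_map_eq_one]
    intro g hg
    apply hZ
    intro x
    have h1 : g * x * g⁻¹ = x := DFunLike.congr_fun hg x
    calc g * x = (g * x * g⁻¹) * g := by group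
      _ = x * g := by rw [h1]
  have hcN : Nat.card N = Nat.card M := (Nat.card_congr (MonoidHom.ofInjective hinjc).toEquiv).symm
  have hM0 : 0 < Nat.card M := Nat.card_pos
  have hA0 : 0 < Nat.card (MulAut M) := Nat.card_pos
  let ψ : C →* MulAut M ⧸ N := (QuotientGroup.mk' N).comp f
  have hψ : Function.Injective ψ := by
    rw [injective_iff_map_eq_one]
    intro c hc
    have h1 : f c ∈ N := (QuotientGroup.eq_one_iff (f c)).1 hc
    obtain ⟨s, hs⟩ := h1
    exact hinj c ⟨s, fun x => by rw [← hs]; rfl⟩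
  have hcψ : Nat.card ψ.range = Nat.card C := (Nat.card_congr (MonoidHom.ofInjective hψ).toEquiv).symm
  have h1 : Nat.card (MulAut M ⧸ N) * Nat.card M = d * Nat.card C * Nat.card M := by
    rw [← hcard, ← hcN]
    exact (Subgroup.card_eq_card_quotient_mul_card_subgroup N).symm
  have h2 : Nat.card (MulAut M ⧸ N) = d * Nat.card C := Nat.eq_of_mul_eq_mul_right hM0 h1
  have h3 := ψ.range.index_mul_card
  rw [h2, hcψ] at h3
  have hC0 : 0 < Nat.card C := by
    rcases Nat.eq_zero_or_pos (Nat.card C) with h | h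
    · rw [h, mul_zero, zero_mul] at hcard
      omega
    · exact h
  have h4 : ψ.range.index = d := Nat.eq_of_mul_eq_mul_right hC0 h3
  obtain ⟨k, s, hs⟩ := (twoPow_iff τ).1 hτ
  obtain ⟨x, hx⟩ := exists_conj_mem ψ.range (by rw [h4]; exact hd) (t := QuotientGroup.mk' N τ) (k := k) (by
    rw [← map_pow, hs]
    exact (QuotientGroup.eq_one_iff _).2 ⟨s, rfl⟩)
  obtain ⟨y, rfl⟩ := QuotientGroup.mk'_surjective N x
  obtain ⟨c, hc⟩ := hx
  have h5 : QuotientGroup.mk' N (f c) = QuotientGroup.mk' N (y⁻¹ * τ * y) := by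
    rw [map_mul, map_mul, map_inv]
    exact hc
  rw [QuotientGroup.mk'_eq_mk'] at h5
  obtain ⟨_, ⟨g, rfl⟩, hg⟩ := h5
  refine ⟨y⁻¹, f c g, c, ?_⟩
  rw [inv_inv, ← hg, ← conj_conj_eq, inv_mul_cancel_right]

end grp

/-! ### invariance -/

section inv

variable {M : Type u} [Group M]

theorem autExt_conj (g : M) (τ : MulAut M) : AutExt (MulAut.conj g * τ) = AutExt τ := by
  unfold AutExt
  apply le_antisymm
  · refine sup_le le_sup_left ?_
    rw [Subgroup.zpowers_le]
    exact mul_mem (le_sup_left (a := (MulAut.conj : M →* MulAut M).range) ⟨g, rfl⟩)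
      (le_sup_right (b := Subgroup.zpowers τ) (Subgroup.mem_zpowers τ))
  · refine sup_le le_sup_left ?_
    rw [Subgroup.zpowers_le]
    have h : τ = MulAut.conj g⁻¹ * (MulAut.conj g * τ) := by
      rw [← mul_assoc, ← map_mul, inv_mul_cancel, map_one, one_mul]
    rw [h]
    have h2 : MulAut.conj g * (MulAut.conj g⁻¹ * (MulAut.conj g * τ)) = MulAut.conj g * τ := by
      rw [← mul_assoc (MulAut.conj g), ← map_mul, mul_inv_cancel, map_one, one_mul]
    rw [h2]
    exact mul_mem (le_sup_left (a := (MulAut.conj : M →* MulAut M).range) ⟨g⁻¹, rfl⟩)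
      (le_sup_right (b := Subgroup.zpowers (MulAut.conj g * τ)) (Subgroup.mem_zpowers _))

theorem autExt_map (x τ : MulAut M) : (AutExt τ).map (MulAut.conj x).toMonoidHom = AutExt (x * τ * x⁻¹) := by
  unfold AutExt
  rw [Subgroup.map_sup]
  congr 1
  · apply le_antisymm
    · rintro _ ⟨_, ⟨g, rfl⟩, rfl⟩
      exact ⟨x g, (conj_conj_eq x g).symm⟩
    · rintro _ ⟨g, rfl⟩
      refine ⟨MulAut.conj (x⁻¹ g), ⟨_, rfl⟩, ?_⟩
      show x * MulAut.conj (x⁻¹ g) * x⁻¹ = _
      rw [conj_conj_eq, MulAut.apply_inv_self]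
  · rw [MonoidHom.map_zpowers]
    rfl

theorem d3_of_equiv {G H : Type u} [Group G] [Group H] [Finite G] (e : G ≃* H) (h : D3 G) : D3 H := by
  intro Q
  have hf : Finite H := Finite.of_equiv G e.toEquiv
  have h1 : ∃ Q' : Sylow 2 G, (Q' : Subgroup G).map e.toMonoidHom = Q := by
    refine ⟨Q.comapOfInjective e.toMonoidHom e.injective ?_, ?_⟩
    · intro y _
      exact ⟨e.symm y, e.apply_symm_apply y⟩
    · show ((Q : Subgroup H).comap e.toMonoidHom).map e.toMonoidHom = Q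
      exact Subgroup.map_comap_eq_self_of_surjective e.surjective _
  obtain ⟨Q', hQ'⟩ := h1
  obtain ⟨f, hf⟩ := h Q'
  have h2 : (Q' : Subgroup G).map e.toMonoidHom = (Q : Subgroup H) := hQ'
  let φ : (Q' : Subgroup G) ≃* (Q : Subgroup H) :=
    ((Q' : Subgroup G).equivMapOfInjective e.toMonoidHom e.injective).trans (MulEquiv.subgroupCongr h2)
  exact ⟨f.comp φ.symm.toMonoidHom, hf.comp φ.symm.surjective⟩

theorem d3_autExt_conj' [Finite M] (x τ : MulAut M) (h : D3 (AutExt τ)) : D3 (AutExt (x * τ * x⁻¹)) := by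
  rw [← autExt_map]
  exact d3_of_equiv ((AutExt τ).equivMapOfInjective (MulAut.conj x).toMonoidHom (MulAut.conj x).injective) h

theorem gInv3_conj' (x τ : MulAut M) (h : GInv3 τ) : GInv3 (x * τ * x⁻¹) := by
  obtain ⟨χ, h1, h2⟩ := h
  refine ⟨fun i y => χ i (x⁻¹ y), fun i j hij => h1 ?_, fun i => ⟨H740.K4.good_comp x⁻¹ (h2 i).1, fun y => ?_⟩⟩
  · funext s
    have := congrFun hij (x s)
    simpa using this
  · show χ i (x⁻¹ (x (τ (x⁻¹ y)))) = χ i (x⁻¹ y)
    rw [MulAut.inv_apply_self]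
    exact (h2 i).2 _

theorem gInv3_inn (g : M) (τ : MulAut M) (h : GInv3 τ) : GInv3 (MulAut.conj g * τ) := by
  obtain ⟨χ, h1, h2⟩ := h
  refine ⟨χ, h1, fun i => ⟨(h2 i).1, fun x => ?_⟩⟩
  show χ i (g * τ x * g⁻¹) = χ i x
  rw [Cfsg.Agent.Characters.Core.isIrr_isClassFunction (h2 i).1.odd.1 (τ x) g]
  exact (h2 i).2 x

theorem undo (x τ : MulAut M) : x⁻¹ * (x * τ * x⁻¹) * x⁻¹⁻¹ = τ := by group

theorem undo' (g : M) (τ : MulAut M) : MulAut.conj g⁻¹ * (MulAut.conj g * τ) = τ := by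
  rw [← mul_assoc, ← map_mul, inv_mul_cancel, map_one, one_mul]

/-- `GInv3` for `τ` from `GInv3` for a conjugate times an inner automorphism -/
theorem gInv3_iff_red {x τ β : MulAut M} {g : M} (e : x * τ * x⁻¹ = MulAut.conj g * β) : GInv3 τ ↔ GInv3 β := by
  constructor
  · intro h
    have h1 := gInv3_conj' x τ h
    rw [e] at h1
    have h2 := gInv3_inn g⁻¹ _ h1
    rwa [undo'] at h2
  · intro h
    have h1 := gInv3_inn g _ h
    rw [← e] at h1
    have h2 := gInv3_conj' x⁻¹ _ h1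
    rwa [undo] at h2

theorem d3_iff_red [Finite M] {x τ β : MulAut M} {g : M} (e : x * τ * x⁻¹ = MulAut.conj g * β) :
    D3 (AutExt τ) ↔ D3 (AutExt β) := by
  constructor
  · intro h
    have h1 := d3_autExt_conj' x τ h
    rwa [e, autExt_conj] at h1
  · intro h
    rw [← autExt_conj g, ← e] at h
    have h2 := d3_autExt_conj' x⁻¹ _ h
    rwa [undo] at h2

/-- **`ExtRow` is invariant** -/
theorem extRow_iff_red [Finite M] {x τ β : MulAut M} {g : M} (e : x * τ * x⁻¹ = MulAut.conj g * β) :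
    ExtRow M τ ↔ ExtRow M β := by
  unfold ExtRow
  rw [gInv3_iff_red e, d3_iff_red e]

theorem isInn_iff_red {x τ β : MulAut M} {g : M} (e : x * τ * x⁻¹ = MulAut.conj g * β) : IsInn τ ↔ IsInn β := by
  rw [isInn_iff, isInn_iff]
  constructor
  · rintro ⟨s, rfl⟩
    rw [conj_conj_eq] at e
    refine ⟨g⁻¹ * x s, ?_⟩
    rw [map_mul, e, ← mul_assoc, ← map_mul, inv_mul_cancel, map_one, one_mul]
  · rintro ⟨s, rfl⟩
    rw [← map_mul] at e
    refine ⟨x⁻¹ (g * s), ?_⟩
    rw [← conj_conj_eq, ← e, inv_inv]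
    group

end inv

end Cfsg.Agent.H805.K547.Red
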