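import Cfsg.Agent.H821.K547.Defs
import Cfsg.Agent.Schreier.SylMTwentyTwo
import Cfsg.Agent.SporadicA.MathieuRecog

/-!
# S4547: `D3` for `M22` and `M23` (helper805)

The explicit Sylow 2-subgroup `T` of `M22` and of `M23` (`Schreier/SylMTwentyTwo`) has three generators and `T/Φ(T)` has
order 8: the parities of the numbers of letters of a word depend only on its value.
-/

set_option autoImplicit false

namespace Cfsg.Agent.H805.K547

open Cfsg Cfsg.Agent.H821.K547 Cfsg.Agent.Schreier.SylMTwentyTwo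

universe u v

/-! ### generalities -/

theorem rk_of_equiv {n : ℕ} {P : Type u} {Q : Type v} [Group P] [Group Q] (h : Rk n P) (e : P ≃* Q) : Rk n Q := by
  obtain ⟨f, hf⟩ := h
  exact ⟨f.comp e.symm.toMonoidHom, hf.comp e.symm.surjective⟩

/-- `D3` from one subgroup of order `2 ^ n`, `|G| = 2 ^ n * m`, `m` odd -/
theorem d3_of_card {G : Type u} [Group G] [Finite G] (H : Subgroup G) (hH : Rk 3 H) {n m : ℕ}
    (hc : Nat.card H = 2 ^ n) (hG : Nat.card G = 2 ^ n * m) (hm : ¬ 2 ∣ m) : D3 G := by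
  have : Fact (Nat.Prime 2) := ⟨Nat.prime_two⟩
  have hm0 : m ≠ 0 := fun h => hm (h ▸ dvd_zero 2)
  intro Q
  let P : Sylow 2 G := Sylow.ofCard H (by
    rw [hc, hG, Nat.factorization_mul (by positivity) hm0, Finsupp.add_apply, Nat.factorization_pow,
      Finsupp.smul_apply, Nat.Prime.factorization_self Nat.prime_two, Nat.factorization_eq_zero_of_not_dvd hm,
      smul_eq_mul, mul_one, add_zero])
  exact rk_of_equiv (P := (P : Subgroup G)) hH (Sylow.equiv P Q)

/-! ### the parity homomorphism on `T` -/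

/-- parities of the numbers of letters -/
def par : List ℕ → ℕ
  | [] => 0
  | k :: w => Nat.xor (Nat.pow 2 k) (par w)

/-- the 128 elements and their parities -/
def PL : List (List ℕ × ℕ) := wds.map (fun w => (ev w, par w))

theorem PL_ok : (([0, 1, 2] : List ℕ).all fun k => PL.all fun x => PL.any fun y =>
    (y.1 == mulL (gl.getD k []) x.1) && Nat.beq y.2 (Nat.xor (Nat.pow 2 k) x.2)) = true := by decide +kernel

theorem PL_one : (PL.any fun y => (y.1 == idL) && Nat.beq y.2 0) = true := by decide +kernel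

theorem PL_fst : PL.map Prod.fst = els := by
  rw [PL, List.map_map]
  rfl

/-- `g` has the parity vector `v` -/
def R (g : Equiv.Perm GolayPt) (v : ℕ) : Prop := ∃ x ∈ PL, Rp g x.1 ∧ x.2 = v

theorem R.unique {g : Equiv.Perm GolayPt} {v w : ℕ} (h : R g v) (h' : R g w) : v = w := by
  obtain ⟨x, hx, h1, rfl⟩ := h
  obtain ⟨y, hy, h2, rfl⟩ := h'
  have h3 : (PL.map Prod.fst).Nodup := by rw [PL_fst]; exact nodup_ok
  rw [List.inj_on_of_nodup_map h3 hx hy (h1.unique h2)]

theorem R_one : R 1 0 := by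
  obtain ⟨y, hy, h⟩ := List.any_eq_true.1 PL_one
  rw [Bool.and_eq_true, beq_iff_eq] at h
  refine ⟨y, hy, ?_, Nat.eq_of_beq_eq_true h.2⟩
  rw [h.1]
  exact rp_one

theorem R_mul (k : Fin 3) {g : Equiv.Perm GolayPt} {v : ℕ} (h : R g v) :
    R (gen k * g) (Nat.xor (2 ^ (k : ℕ)) v) := by
  obtain ⟨x, hx, h1, rfl⟩ := h
  have h2 := PL_ok
  rw [List.all_eq_true] at h2
  have h3 := h2 (k : ℕ) (by fin_cases k <;> simp)
  rw [List.all_eq_true] at h3
  obtain ⟨y, hy, h4⟩ := List.any_eq_true.1 (h3 x hx)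
  rw [Bool.and_eq_true, beq_iff_eq] at h4
  refine ⟨y, hy, ?_, Nat.eq_of_beq_eq_true h4.2⟩
  rw [h4.1]
  exact (rp_gen k).mul h1

theorem exists_R {g : Equiv.Perm GolayPt} (hg : g ∈ T) : ∃ v, R g v := by
  have h1 : g ∈ (Subgroup.closure (Set.range gen)).toSubmonoid := hg
  rw [Subgroup.closure_toSubmonoid_of_finite] at h1
  refine Submonoid.closure_induction_left (motive := fun g _ => ∃ v, R g v) ⟨0, R_one⟩ ?_ h1
  rintro _ ⟨k, rfl⟩ y _ ⟨v, hv⟩
  exact ⟨_, R_mul k hv⟩

/-- the parity vector -/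
noncomputable def s (g : T) : ℕ := (exists_R g.2).choose

theorem s_spec (g : T) : R g (s g) := (exists_R g.2).choose_spec

theorem s_eq {g : T} {v : ℕ} (h : R g v) : s g = v := (s_spec g).unique h

theorem s_one : s 1 = 0 := s_eq R_one

theorem s_gen_mul (k : Fin 3) (g : T) : s (tgen k * g) = Nat.xor (2 ^ (k : ℕ)) (s g) :=
  s_eq (R_mul k (s_spec g))

theorem s_mul (a b : T) : s (a * b) = s a ^^^ s b := by
  obtain ⟨a, ha⟩ := a
  have h1 : a ∈ (Subgroup.closure (Set.range gen)).toSubmonoid := ha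
  rw [Subgroup.closure_toSubmonoid_of_finite] at h1
  have key : ∃ ha' : a ∈ T, s (⟨a, ha'⟩ * b) = s ⟨a, ha'⟩ ^^^ s b := by
    refine Submonoid.closure_induction_left (motive := fun a _ => ∃ ha' : a ∈ T, s (⟨a, ha'⟩ * b) = s ⟨a, ha'⟩ ^^^ s b)
      ?_ ?_ h1
    · refine ⟨one_mem _, ?_⟩
      have e : (⟨1, one_mem _⟩ : T) = 1 := rfl
      rw [e, one_mul, s_one, Nat.zero_xor]
    · rintro _ ⟨k, rfl⟩ y _ ⟨hy, ih⟩
      refine ⟨mul_mem (tgen k).2 hy, ?_⟩
      have e : (⟨gen k * y, mul_mem (tgen k).2 hy⟩ : T) = tgen k * ⟨y, hy⟩ := rfl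
      rw [e, mul_assoc, s_gen_mul, s_gen_mul, ih]
      exact (Nat.xor_assoc _ _ _).symm
  exact key.2

/-- a bit as an element of `ZMod 2` -/
def bit (b : Bool) : ZMod 2 := if b then 1 else 0

theorem bit_xor (a b : Bool) : bit (a ^^ b) = bit a + bit b := by
  cases a <;> cases b <;> decide

theorem bit_testBit (k i : Fin 3) : bit ((2 ^ (k : ℕ)).testBit (i : ℕ)) = if k = i then 1 else 0 := by
  fin_cases k <;> fin_cases i <;> decide

/-- the parity homomorphism -/
noncomputable def parHom : T →* Multiplicative (Fin 3 → ZMod 2) where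
  toFun g := Multiplicative.ofAdd fun i => bit ((s g).testBit i)
  map_one' := by
    rw [s_one]
    apply Multiplicative.toAdd.injective
    funext i
    simp [bit]
  map_mul' a b := by
    apply Multiplicative.toAdd.injective
    funext i
    show bit ((s (a * b)).testBit i) = bit ((s a).testBit i) + bit ((s b).testBit i)
    rw [s_mul, Nat.testBit_xor, bit_xor]

theorem parHom_gen (k i : Fin 3) : (parHom (tgen k)).toAdd i = if k = i then 1 else 0 := by
  show bit ((s (tgen k)).testBit i) = _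
  have h1 := s_gen_mul k 1
  rw [mul_one, s_one] at h1
  have h2 : Nat.xor (2 ^ (k : ℕ)) 0 = 2 ^ (k : ℕ) := Nat.xor_zero _
  rw [h1, h2, bit_testBit]

theorem rk_T : Rk 3 T := by
  refine ⟨parHom, fun v => ?_⟩
  have key : ∀ (k : Fin 3) (c : ZMod 2), ∃ g : T, ∀ i, (parHom g).toAdd i = if k = i then c else 0 := by
    intro k c
    have h2 : c = 0 ∨ c = 1 := by
      revert c
      decide
    rcases h2 with rfl | rfl
    · refine ⟨1, fun i => ?_⟩
      rw [map_one]
      simp
    · exact ⟨tgen k, parHom_gen k⟩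
  obtain ⟨a, ha⟩ := key 0 (v.toAdd 0)
  obtain ⟨b, hb⟩ := key 1 (v.toAdd 1)
  obtain ⟨c, hc⟩ := key 2 (v.toAdd 2)
  refine ⟨a * b * c, ?_⟩
  have e1 : parHom (a * b * c) = parHom a * parHom b * parHom c := by rw [map_mul, map_mul]
  rw [e1]
  apply Multiplicative.toAdd.injective
  funext i
  show (parHom a).toAdd i + (parHom b).toAdd i + (parHom c).toAdd i = v.toAdd i
  rw [ha, hb, hc]
  fin_cases i <;> simp

/-! ### `D3` -/

theorem d3_of_equiv {S : Type u} [Group S] {K : Subgroup (Equiv.Perm GolayPt)} (hT : T ≤ K) (e : S ≃* K) {m : ℕ}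
    (hK : Nat.card K = 2 ^ 7 * m) (hm : ¬ 2 ∣ m) : D3 S := by
  have hS : Nat.card S = 2 ^ 7 * m := by rw [Nat.card_congr e.toEquiv, hK]
  have hfin : Finite S := Nat.finite_of_card_ne_zero (by
    rw [hS]
    have : m ≠ 0 := fun h => hm (h ▸ dvd_zero 2)
    positivity)
  let e1 : T ≃* (T.subgroupOf K) := (Subgroup.subgroupOfEquivOfLe hT).symm
  let e2 : (T.subgroupOf K) ≃* ((T.subgroupOf K).map e.symm.toMonoidHom) :=
    (T.subgroupOf K).equivMapOfInjective e.symm.toMonoidHom e.symm.injective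
  refine d3_of_card (n := 7) ((T.subgroupOf K).map e.symm.toMonoidHom) (rk_of_equiv rk_T (e1.trans e2)) ?_ hS hm
  rw [← Nat.card_congr (e1.trans e2).toEquiv, card_T]
  norm_num

theorem d3_m22 {S : Type u} [Group S] (h : Cfsg.Spor.IsoM22 S) : D3 S := by
  obtain ⟨e⟩ := h
  exact d3_of_equiv (m := 3465) T_le e (by rw [Cfsg.Agent.SporadicA.MathieuRecog.card_M22]; norm_num) (by decide)

theorem d3_m23 {S : Type u} [Group S] (h : Cfsg.Spor.IsoM23 S) : D3 S := by
  obtain ⟨e⟩ := h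
  exact d3_of_equiv (m := 79695) (T_le.trans inf_le_left) e
    (by rw [Cfsg.Agent.SporadicA.MathieuRecog.card_M23]; norm_num) (by decide)

end Cfsg.Agent.H805.K547
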